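import Mathlib
import Cfsg.Prelude.Def_Transfer
import Cfsg.Agent.Lib.Helper24.ES3.Defs

set_option autoImplicit false

namespace Cfsg.Agent.Lib.Helper24.ES3

variable {G : Type*} [Group G]

/-- B4 -/
theorem exists_chi {p : ℕ} [Fact p.Prime] {P : Subgroup G} {z : G} (h : Dat p P z) :
    ∃ χ : NP P →* (ZMod p)ˣ, ∀ n : NP P,
      (n : G) * z * (n : G)⁻¹ = z ^ ((χ n : (ZMod p)ˣ) : ZMod p).val := by
  have hp := (Fact.out : p.Prime)
  have hord : orderOf z = p := orderOf_eq_prime (h.exp z h.zP) h.z1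
  have hex : ∀ n : NP P, ∃ c : ZMod p, (n : G) * z * (n : G)⁻¹ = z ^ c.val := by
    intro n
    have hn := n.2
    rw [Subgroup.mem_normalizer_iff] at hn
    have hmem : (n : G) * z * (n : G)⁻¹ ∈ P := (hn z).1 h.zP
    obtain ⟨k, hk⟩ := h.cen _ hmem (fun y hy => by
      have hy' : (n : G)⁻¹ * y * (n : G) ∈ P := by
        rw [hn]
        have : (n : G) * ((n : G)⁻¹ * y * (n : G)) * (n : G)⁻¹ = y := by group
        rw [this]; exact hy
      have hc := h.zc _ hy'
      calc (n : G) * z * (n : G)⁻¹ * y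
          = (n : G) * (z * ((n : G)⁻¹ * y * (n : G))) * (n : G)⁻¹ := by group
        _ = (n : G) * (((n : G)⁻¹ * y * (n : G)) * z) * (n : G)⁻¹ := by rw [hc]
        _ = y * ((n : G) * z * (n : G)⁻¹) := by group)
    refine ⟨(k : ZMod p), ?_⟩
    rw [hk, ZMod.val_natCast]
    conv_rhs => rw [← hord]
    rw [pow_mod_orderOf]
  choose f hf using hex
  have hcast : ∀ a b : ℕ, z ^ a = z ^ b → (a : ZMod p) = (b : ZMod p) := by
    intro a b hab
    rw [pow_eq_pow_iff_modEq, hord] at hab
    exact (ZMod.natCast_eq_natCast_iff a b p).2 hab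
  let F : NP P →* ZMod p :=
    { toFun := f
      map_one' := by
        have h1 := hf 1
        have h2 : z ^ 1 = z ^ (f 1).val := by rw [← h1]; simp
        have h3 := hcast _ _ h2
        rw [ZMod.natCast_zmod_val, Nat.cast_one] at h3
        exact h3.symm
      map_mul' := by
        intro n m
        have h1 : z ^ (f (n * m)).val = z ^ ((f n).val * (f m).val) := by
          rw [← hf (n * m), pow_mul, ← hf n, conj_pow, ← hf m]
          simp only [Subgroup.coe_mul]
          group
        have h3 := hcast _ _ h1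
        rw [ZMod.natCast_zmod_val, Nat.cast_mul, ZMod.natCast_zmod_val, ZMod.natCast_zmod_val] at h3
        exact h3 }
  exact ⟨F.toHomUnits, fun n => by rw [MonoidHom.coe_toHomUnits]; exact hf n⟩

end Cfsg.Agent.Lib.Helper24.ES3
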